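import Cfsg.Agent.H141.Ux.Stmts
import Cfsg.Agent.H50.RG.NoG
import Cfsg.Agent.H50.RG.Small
import Cfsg.Agent.H261.Ux.Block

/-!
# S5716, unbounded rank: typical elements, linear case (`ut3 : H141.Ux.UT3`)
-/

set_option autoImplicit false

namespace Cfsg.Agent.H261.Ux

open Module Cfsg.Agent.H847.Bs Cfsg.Agent.H50.RG Cfsg.Agent.H141.Ux

section

variable {F V : Type*} [Field F] [AddCommGroup V] [Module F V]

theorem cnt_or [Finite (V ≃ₗ[F] V)] {G : Subgroup (V ≃ₗ[F] V)} {P Q R : (V ≃ₗ[F] V) → Prop}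
    (h : ∀ y ∈ G, P y → Q y ∨ R y) : cnt G P ≤ cnt G Q + cnt G R := by
  classical
  unfold cnt
  rw [← Nat.card_sum]
  refine Nat.card_le_card_of_injective (fun y => if hq : Q y.1 then Sum.inl ⟨y.1, y.2.1, hq⟩ else
    Sum.inr ⟨y.1, y.2.1, (h y.1 y.2.1 y.2.2).resolve_left hq⟩) ?_
  rintro ⟨y, hy⟩ ⟨z, hz⟩ hyz
  apply Subtype.ext
  by_cases h1 : Q y <;> by_cases h2 : Q z <;> simp_all

/-- union bound by a first moment -/
theorem cnt_sum [Finite (V ≃ₗ[F] V)] {G : Subgroup (V ≃ₗ[F] V)} [Fintype G] {P : (V ≃ₗ[F] V) → Prop} {ι : Type*}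
    (I : Finset ι) (a : ι → (V ≃ₗ[F] V) → ℕ) (h : ∀ y ∈ G, P y → ∃ i ∈ I, 1 ≤ a i y) :
    cnt G P ≤ ∑ i ∈ I, ∑ y : G, a i y := by
  classical
  have h1 : cnt G P = Nat.card {y : G // P y} := by
    unfold cnt
    refine Nat.card_congr
      { toFun := fun y => ⟨⟨y.1, y.2.1⟩, y.2.2⟩
        invFun := fun y => ⟨y.1.1, y.1.2, y.2⟩
        left_inv := fun _ => rfl
        right_inv := fun _ => rfl }
  rw [h1, Nat.card_eq_fintype_card, Fintype.card_subtype, Finset.card_filter, Finset.sum_comm]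
  refine Finset.sum_le_sum fun y _ => ?_
  split_ifs with hy
  · obtain ⟨i, hi, h2⟩ := h y y.2 hy
    exact h2.trans (Finset.single_le_sum (f := fun i => a i y) (fun _ _ => Nat.zero_le _) hi)
  · exact Nat.zero_le _

/-- irreducible automorphisms with a small `p`-primitive part -/
def Sb (F X : Type*) [Field F] [AddCommGroup X] [Module F X] (p d M : ℕ) : Set (X ≃ₗ[F] X) :=
  {m | Irr m ⊤ ∧ ¬ Bp p d M (orderOf m)}

theorem cj_Sb {X : Type*} [AddCommGroup X] [Module F X] (p d M : ℕ) : Cj (Sb F X p d M) := by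
  rintro m ⟨hm, hd⟩ t
  refine ⟨irr_conj hm, ?_⟩
  have : orderOf (t⁻¹ * m * t) = orderOf m := by
    have := orderOf_injective (MulAut.conj t⁻¹ : MulAut (X ≃ₗ[F] X)).toMonoidHom (MulEquiv.injective _) m
    simpa using this
  rw [this]
  exact hd

theorem card_Sb (e p d M : ℕ) : Nat.card {g : GL (Fin e) F // IrrM F g ∧ ¬ Bp p d M (orderOf g)} =
    Nat.card (Sb F (Fin e → F) p d M) :=
  Nat.card_congr ((mE F e).toEquiv.subtypeEquiv fun g => by
    have h : orderOf (mE F e g) = orderOf g := orderOf_injective (mE F e).toMonoidHom (mE F e).injective g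
    refine and_congr (irrM_iff F g) ?_
    have h' : orderOf ((mE F e).toEquiv g) = orderOf g := h
    rw [h'])

/-- an irreducible subspace is in `AA` or has a large `p`-primitive part -/
theorem mem_AA_or [FiniteDimensional F V] {X : Type*} [AddCommGroup X] [Module F X] [FiniteDimensional F X]
    {TS : Submodule F V → Prop} {e p d M : ℕ} (hX : finrank F X = e) {y : V ≃ₗ[F] V} {A : Submodule F V}
    (hA : TS A) (hd : finrank F A = e) (hirr : Irr y A) :
    A ∈ AA TS y (Sb F X p d M) ∨ ∃ k : ℕ, M ≤ k ∧ (∀ r : ℕ, r.Prime → r ∣ k → orderOf ((p : ℕ) : ZMod r) = d) ∧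
      ∀ j : ℕ, (∀ a ∈ A, (y ^ j) a = a) → k ∣ j := by
  let θ : X ≃ₗ[F] A := LinearEquiv.ofFinrankEq X A (by rw [hX, hd])
  let φ : X →ₗ[F] V := A.subtype ∘ₗ (θ : X →ₗ[F] A)
  have hi : Function.Injective φ := A.injective_subtype.comp θ.injective
  have hr' : LinearMap.range φ = A := by
    rw [LinearMap.range_comp, LinearEquiv.range, Submodule.map_top, Submodule.range_subtype]
  obtain ⟨m, hm⟩ := exists_m (y := y) hi (by rw [hr']; exact hirr.inv)
  by_cases hb : Bp p d M (orderOf m)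
  · right
    obtain ⟨k, hk, hkr, hkm⟩ := hb
    refine ⟨k, hk, hkr, fun j hj => hkm.trans (orderOf_dvd_of_pow_eq_one ?_)⟩
    ext x
    apply hi
    rw [← pow_frame hm]
    refine hj _ ?_
    rw [← hr']
    exact ⟨x, rfl⟩
  · left
    refine ⟨hA, φ, hi, hr', m, ⟨?_, hb⟩, hm⟩
    rw [irr_frame hi hm, hr']
    exact hirr

end

/-- the first moment of the irreducible subspaces with small `p`-primitive part -/
theorem first {F V : Type} [Field F] [Finite F] [AddCommGroup V] [Module F V] [Module.Finite F V]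
    {p f e : ℕ} (hp : p.Prime) (hF : Nat.card F = p ^ f) (he : 3 ≤ e) (hn : e < finrank F V)
    (h : 64 * (e * f) * (2 * e + 2) ^ 2 * e ≤ p ^ (e * f).totient) [Fintype (slV F V)] :
    ((∑ y : slV F V, Nat.card (AA (Prp F V) (y : V ≃ₗ[F] V) (Sb F (Fin e → F) p (e * f) (2 * e + 2))) : ℕ) : ℝ) ≤
      Nat.card (slV F V) * (1 / 16 * ((e : ℝ) ^ 2)⁻¹) := by
  have : Finite V := Module.finite_of_finite F
  obtain ⟨A, hA⟩ := exists_sub (F := F) (V := V) (k := finrank F V - 1) (by omega)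
  have h1 := sum_AA (l04 F V (by omega)) (X := Fin e → F) (by simp; omega) (by
      intro g _ A hA
      unfold Prp at hA ⊢
      rwa [LinearEquiv.finrank_map_eq])
    (exists_fr (TS := Prp F V) (k₀ := finrank F V - 1) (fun A B hAB hB => (Submodule.finrank_mono hAB).trans_lt hB)
      ⟨A, by unfold Prp; omega, hA⟩ (by simp; omega)) (cj_Sb (F := F) (X := Fin e → F) p (e * f) (2 * e + 2))
  have h2 := card_bad F hp hF he h
  rw [card_Sb, card_GLX] at h2
  have hgl : (0 : ℝ) < Nat.card ((Fin e → F) ≃ₗ[F] (Fin e → F)) := by exact_mod_cast Nat.card_pos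
  have h3 : ((∑ y : slV F V, Nat.card (AA (Prp F V) (y : V ≃ₗ[F] V) (Sb F (Fin e → F) p (e * f) (2 * e + 2))) : ℕ) : ℝ) *
      Nat.card ((Fin e → F) ≃ₗ[F] (Fin e → F)) =
      Nat.card (slV F V) * Nat.card (Sb F (Fin e → F) p (e * f) (2 * e + 2)) := by
    exact_mod_cast h1
  have h4 : 16 * (e : ℝ) ^ 2 * Nat.card (Sb F (Fin e → F) p (e * f) (2 * e + 2)) ≤
      Nat.card ((Fin e → F) ≃ₗ[F] (Fin e → F)) := by
    exact_mod_cast h2
  have he0 : (0 : ℝ) < (e : ℝ) ^ 2 := by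
    have : (0 : ℝ) < e := by exact_mod_cast (show 0 < e by omega)
    positivity
  have hG0 : (0 : ℝ) ≤ Nat.card (slV F V) := Nat.cast_nonneg _
  refine le_of_mul_le_mul_right ?_ hgl
  rw [h3, mul_assoc]
  refine mul_le_mul_of_nonneg_left ?_ hG0
  rw [mul_assoc, inv_mul_eq_div, one_div, inv_mul_eq_div, le_div_iff₀ (by norm_num), le_div_iff₀ he0]
  linarith

theorem sum_inv_sq {η : ℝ} (hη : 0 < η) {I : Finset ℕ} (h : ∀ e ∈ I, ((e : ℕ) : ℝ)⁻¹ ≤ η ∧ 1 ≤ e) :
    ∑ e ∈ I, ((e : ℝ) ^ 2)⁻¹ ≤ 2 * η := by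
  set k : ℕ := ⌈η⁻¹⌉₊ - 1 with hk
  have hc : 1 ≤ ⌈η⁻¹⌉₊ := Nat.one_le_ceil_iff.2 (by positivity)
  have hsub : I ⊆ Finset.Ioo k (I.sup id + 1) := by
    intro e he
    obtain ⟨h1, h2⟩ := h e he
    rw [Finset.mem_Ioo]
    constructor
    · have h3 : η⁻¹ ≤ e := by
        have he0 : (0 : ℝ) < e := by exact_mod_cast (show 0 < e by omega)
        rw [inv_le_comm₀ hη he0]
        exact h1
      have h4 : ⌈η⁻¹⌉₊ ≤ e := Nat.ceil_le.2 h3
      omega
    · have : e ≤ I.sup id := Finset.le_sup (f := id) he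
      omega
  refine (Finset.sum_le_sum_of_subset_of_nonneg hsub fun _ _ _ => by positivity).trans
    ((sum_Ioo_inv_sq_le (α := ℝ) k (I.sup id + 1)).trans ?_)
  have h5 : η⁻¹ ≤ (k : ℝ) + 1 := by
    have h6 : ((k + 1 : ℕ) : ℝ) = (⌈η⁻¹⌉₊ : ℝ) := by
      congr 1
      omega
    push_cast at h6
    rw [h6]
    exact Nat.le_ceil _
  rw [div_le_iff₀ (by positivity)]
  have h7 : 1 ≤ η * ((k : ℝ) + 1) := by
    calc (1 : ℝ) = η * η⁻¹ := (mul_inv_cancel₀ hη.ne').symm
      _ ≤ _ := mul_le_mul_of_nonneg_left h5 hη.le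
  linarith

/-- **UT3** -/
theorem ut3 : UT3 := by
  intro ε hε
  refine ⟨max 1 (128 / ε), min (1 / 2) (ε / 32), le_max_left _ _, by positivity, ?_⟩
  intro F V _ _ _ _ _ p f hp hF I hI hK
  classical
  set η : ℝ := min (1 / 2) (ε / 32) with hη
  have hη0 : 0 < η := by positivity
  have hη1 : η ≤ 1 := (min_le_left _ _).trans (by norm_num)
  have hη2 : η ≤ ε / 32 := min_le_right _ _
  have hfin : Finite (V ≃ₗ[F] V) := finite_glV
  have := Fintype.ofFinite (slV F V)
  have hG0 : (0 : ℝ) ≤ Nat.card (slV F V) := Nat.cast_nonneg _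
  -- the parity
  obtain ⟨par, hpar⟩ : ∃ par : ℕ, 64 / ε ≤ ∑ e ∈ I.filter (fun e => e % 2 = par % 2), 1 / (e : ℝ) := by
    by_contra hcon
    push Not at hcon
    have h0 := hcon 0
    have h1 := hcon 1
    have h2 := Finset.sum_filter_add_sum_filter_not I (fun e => e % 2 = 0 % 2) (fun e => 1 / (e : ℝ))
    have h3 : I.filter (fun e => ¬ e % 2 = 0 % 2) = I.filter (fun e => e % 2 = 1 % 2) := by
      refine Finset.filter_congr fun e _ => ?_
      omega
    rw [h3] at h2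
    have h4 : 128 / ε ≤ ∑ e ∈ I, 1 / (e : ℝ) := (le_max_right _ _).trans hK
    have h5 : 128 / ε = 64 / ε + 64 / ε := by ring
    linarith
  set I' : Finset ℕ := I.filter (fun e => e % 2 = par % 2) with hI'
  have hI1 : ∀ e ∈ I', Num η (finrank F V) p f e := fun e he => hI e (Finset.mem_filter.1 he).1
  have hI2 : ∀ e ∈ I', e % 2 = par % 2 := fun e he => (Finset.mem_filter.1 he).2
  have hne : I'.Nonempty := by
    rw [Finset.nonempty_iff_ne_empty]
    intro h0
    rw [h0, Finset.sum_empty] at hpar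
    have : 0 < 64 / ε := by positivity
    linarith
  have hV : 1 ≤ finrank F V := by
    obtain ⟨e, he⟩ := hne
    have := (hI1 e he).le
    omega
  -- good subspaces
  have hIdx : Idx (ε / 2) (finrank F V) (Nat.card F) par 2 I' := by
    refine ⟨le_rfl, fun e he => ?_, ?_⟩
    · have hN := hI1 e he
      have h1 := hN.le
      have h2 := hN.ge
      refine ⟨by omega, hI2 e he, by omega, hN.nd.2.1, hN.nd.2.2, ?_, hN.sum.trans ?_⟩
      · rw [hF]
        refine le_trans (Nat.mul_le_mul_left _ (Nat.pow_le_pow_left (by omega) 2)) hN.big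
      · have h3 : ε / 2 / 16 = ε / 32 := by ring
        rw [h3]
    · have h1 : ∑ e ∈ I', 1 / (2 * e : ℝ) = (∑ e ∈ I', 1 / (e : ℝ)) / 2 := by
        rw [Finset.sum_div]
        refine Finset.sum_congr rfl fun e _ => ?_
        rw [one_div, one_div, mul_inv]
        ring
      rw [h1]
      have h2 : 16 / (ε / 2) = 64 / ε / 2 := by
        field_simp
        norm_num
      rw [h2]
      linarith
  have hno := noG_sl H383.RG.rg_L02 (H961.RG.L03_of_L25 H383.RG.rg_L25) l04 l12 (half_pos hε) hIdx hV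
  -- small primitive part
  set a : ℕ → (V ≃ₗ[F] V) → ℕ := fun e y => Nat.card (AA (Prp F V) y (Sb F (Fin e → F) p (e * f) (2 * e + 2)))
    with ha
  have hfirst : ((∑ e ∈ I', ∑ y : slV F V, a e y : ℕ) : ℝ) ≤ ε / 2 * Nat.card (slV F V) := by
    push_cast
    have h1 : ∀ e ∈ I', (∑ y : slV F V, (a e y : ℝ)) ≤ Nat.card (slV F V) * (1 / 16 * ((e : ℝ) ^ 2)⁻¹) := by
      intro e he
      have hN := hI1 e he
      have h1 := hN.le
      have h2 := hN.ge
      have h3 := first (F := F) (V := V) hp hF (show 3 ≤ e by omega) (by omega) hN.bigp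
      push_cast at h3
      exact h3
    refine (Finset.sum_le_sum h1).trans ?_
    rw [← Finset.mul_sum, ← Finset.mul_sum]
    have h2 := sum_inv_sq hη0 (I := I') (fun e he => ⟨(hI1 e he).small, by
      have := (hI1 e he).ge
      omega⟩)
    have h3 : 1 / 16 * ∑ e ∈ I', ((e : ℝ) ^ 2)⁻¹ ≤ ε / 2 := by
      linarith
    rw [mul_comm]
    exact mul_le_mul_of_nonneg_right h3 hG0
  -- the union
  have hcnt : cnt (slV F V) (fun y => ¬ ∃ e ∈ I, ∃ E C z, StL e y E C z ∧ Pp F e (orderOf z)) ≤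
      noG (slV F V) (Prp F V) 2 I' + ∑ e ∈ I', ∑ y : slV F V, a e y := by
    refine (cnt_or (Q := fun y => ¬ ∃ e ∈ I', ∃ A, Gd (Prp F V) e 2 y A) (R := fun y => ∃ e ∈ I', 1 ≤ a e y)
      fun y hy hbad => ?_).trans (Nat.add_le_add le_rfl (cnt_sum I' a fun y _ h => h))
    by_contra hcon
    rw [not_or, not_not] at hcon
    obtain ⟨⟨e, he, A, hgd⟩, hna⟩ := hcon
    have hN := hI1 e he
    have h1 := hN.le
    have h2 := hN.ge
    rcases mem_AA_or (X := Fin e → F) (p := p) (d := e * f) (M := 2 * e + 2) (by simp) hgd.ts hgd.dim hgd.irr with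
      h3 | ⟨k, hk, hkr, hkj⟩
    · refine hna ⟨e, he, ?_⟩
      have : Nonempty (AA (Prp F V) y (Sb F (Fin e → F) p (e * f) (2 * e + 2))) := ⟨⟨A, h3⟩⟩
      have : Finite V := Module.finite_of_finite F
      exact Nat.card_pos
    · obtain ⟨C, z, hz⟩ := stl_of (by omega) hp hF hN.nd.1 hgd hk hkr hkj
      exact hbad ⟨e, (Finset.mem_filter.1 he).1, A, C, z, hz⟩
  calc (cnt (slV F V) (fun y => ¬ ∃ e ∈ I, ∃ E C z, StL e y E C z ∧ Pp F e (orderOf z)) : ℝ) ≤
      ((noG (slV F V) (Prp F V) 2 I' + ∑ e ∈ I', ∑ y : slV F V, a e y : ℕ) : ℝ) := by exact_mod_cast hcnt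
    _ = (noG (slV F V) (Prp F V) 2 I' : ℝ) + ((∑ e ∈ I', ∑ y : slV F V, a e y : ℕ) : ℝ) := by rw [Nat.cast_add]
    _ ≤ ε / 2 * Nat.card (slV F V) + ε / 2 * Nat.card (slV F V) := add_le_add hno hfirst
    _ = ε * Nat.card (slV F V) := by ring

end Cfsg.Agent.H261.Ux
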